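import Mathlib
import Cfsg.Agent.Lib.H33.SylSym

/-!
# Two conjugate involutions of a symmetric group have a common neighbour in the local fusion graph
-/

set_option autoImplicit false
set_option linter.unusedSectionVars false

namespace H33.LocFus

open Equiv Finset

variable {α : Type} [Fintype α] [DecidableEq α] {T : Finset α} {x y z : α → α} {u v : α}

/-- `x` induces an involution of `T` -/
def Iv (T : Finset α) (x : α → α) : Prop := ∀ a ∈ T, x a ∈ T ∧ x (x a) = a

/-- the number of fixed points in `T` -/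
def fx (T : Finset α) (x : α → α) : ℕ := (T.filter fun a => x a = a).card

/-- every component is a path with one end of each kind, or everything -/
def W (T : Finset α) (x z : α → α) : Prop := ∀ S ⊆ T, (∀ a ∈ S, x a ∈ S) → (∀ a ∈ S, z a ∈ S) → S.Nonempty →
  ((∃ p ∈ S, x p = p) ∧ ∃ q ∈ S, z q = q) ∨ S = T

theorem W.symm (h : W T x z) : W T z x := fun S h1 h2 h3 h4 => (h S h1 h3 h2 h4).imp_left And.symm

theorem W.congr {z' : α → α} (h : W T x z) (e : ∀ a ∈ T, z' a = z a) : W T x z' := fun S h1 h2 h3 h4 =>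
  (h S h1 h2 (fun a ha => e a (h1 ha) ▸ h3 a ha) h4).imp_left fun ⟨k, q, hq, k'⟩ => ⟨k, q, hq, (e q (h1 hq)).trans k'⟩

theorem ctr0 (hx : Iv T x) (hu : u ∈ T) (hv : v ∈ T) (huv : u ≠ v) (h1 : x u ≠ v) (h2 : x v ≠ v) :
    ∃ x', Iv (T \ {u, v}) x' ∧ fx (T \ {u, v}) x' = fx T x ∧
      ∀ z : α → α, z u = v → z v = u → Iv (T \ {u, v}) z → W (T \ {u, v}) x' z → W T x z := by
  have xu := hx u hu
  have xv := hx v hv
  have h3 : x v ≠ u := fun e => h1 (by rw [← e, xv.2])
  refine ⟨fun a => if x a = v then (if x u = u then a else x u) else if x a = u then x v else x a, fun a ha => ?_, ?_,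
    fun z z1 z2 hz hW S s1 s2 s3 s4 => ?_⟩
  · have := hx a (mem_sdiff.1 ha).1
    simp only [mem_sdiff, mem_insert, mem_singleton] at ha ⊢
    grind
  · by_cases e : x u = u
    · have : fx (T \ {u, v}) (fun a => if x a = v then (if x u = u then a else x u) else if x a = u then x v else x a) =
          (insert (x v) ((T.filter fun a => x a = a).erase u)).card := congrArg card (Finset.ext fun a => by
        have := hx a
        simp only [mem_filter, mem_sdiff, mem_insert, mem_singleton, mem_erase]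
        grind)
      rw [this, card_insert_of_notMem (by simp only [mem_erase, mem_filter]; grind), card_erase_add_one (by simp [hu, e]), fx]
    · exact congrArg card (Finset.ext fun a => by
        have := hx a
        simp only [mem_filter, mem_sdiff, mem_insert, mem_singleton]
        grind)
  · have k1 : u ∈ S → v ∈ S := fun h => z1 ▸ s3 u h
    have k2 : v ∈ S → u ∈ S := fun h => z2 ▸ s3 v h
    rcases hW (S \ {u, v}) (sdiff_subset_sdiff s1 Subset.rfl) (fun a ha => by
        have := s2 a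
        have := s2 u
        have := s2 v
        have := hx a (s1 (mem_sdiff.1 ha).1)
        simp only [mem_sdiff, mem_insert, mem_singleton] at ha ⊢
        grind)
      (fun a ha => mem_sdiff.2 ⟨s3 a (mem_sdiff.1 ha).1,
        (mem_sdiff.1 (hz a (mem_sdiff.2 ⟨s1 (mem_sdiff.1 ha).1, (mem_sdiff.1 ha).2⟩)).1).2⟩)
      (by
        obtain ⟨a, ha⟩ := s4
        by_cases e : a = u ∨ a = v
        · exact ⟨x v, by simp only [mem_sdiff, mem_insert, mem_singleton]; exact ⟨s2 v (by grind), by grind⟩⟩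
        · exact ⟨a, by simpa [ha] using e⟩) with ⟨⟨p, hp, e⟩, q, hq, e'⟩ | e
    · refine Or.inl ⟨?_, q, (mem_sdiff.1 hq).1, e'⟩
      have := hx p (s1 (mem_sdiff.1 hp).1)
      have := s2 p
      simp only [mem_sdiff, mem_insert, mem_singleton] at hp
      by_cases e1 : x p = p
      · exact ⟨p, hp.1, e1⟩
      · exact ⟨u, by grind, by grind⟩
    · refine Or.inr (Subset.antisymm s1 fun a ha => ?_)
      have hv' : v ∈ S := xv.2 ▸ s2 _ (mem_sdiff.1 (e.ge (show x v ∈ T \ {u, v} by simp [xv.1, h2, h3]))).1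
      by_cases e1 : a = u ∨ a = v
      · grind
      · exact (mem_sdiff.1 (e.ge (show a ∈ T \ {u, v} by simpa [ha] using e1))).1

theorem ctr (hx : Iv T x) (hu : u ∈ T) (hv : v ∈ T) (huv : u ≠ v) (h1 : x u ≠ v) (h2 : x u ≠ u ∨ x v ≠ v) :
    ∃ x', Iv (T \ {u, v}) x' ∧ fx (T \ {u, v}) x' = fx T x ∧
      ∀ z : α → α, z u = v → z v = u → Iv (T \ {u, v}) z → W (T \ {u, v}) x' z → W T x z := by
  rcases h2 with h2 | h2
  · obtain ⟨x', k1, k2, k3⟩ := ctr0 hx hv hu huv.symm (fun e => h1 (by rw [← e, (hx v hv).2])) h2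
    rw [pair_comm] at k1 k2 k3
    exact ⟨x', k1, k2, fun z a b => k3 z b a⟩
  · exact ctr0 hx hu hv huv h1 h2

/-- adjoin the transposition `(u v)` -/
def adj (u v : α) (z : α → α) (a : α) : α := if a = u then v else if a = v then u else z a

theorem adj_off {a : α} (ha : a ∈ T \ {u, v}) : adj u v z a = z a := by
  simp only [mem_sdiff, mem_insert, mem_singleton, not_or] at ha
  simp [adj, ha.2.1, ha.2.2]

theorem adj_u : adj u v z u = v := by simp [adj]

theorem adj_v : adj u v z v = u := by by_cases e : v = u <;> simp [adj, e]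

theorem Iv.congr {z' : α → α} (h : Iv T z) (e : ∀ a ∈ T, z' a = z a) : Iv T z' := fun a ha => by
  rw [e a ha, e _ (h a ha).1]; exact h a ha

theorem Iv.adj (h : Iv (T \ {u, v}) z) (hu : u ∈ T) (hv : v ∈ T) : Iv T (adj u v z) := fun a ha => by
  by_cases e : a = u
  · rw [e, adj_u, adj_v]; exact ⟨hv, rfl⟩
  by_cases e' : a = v
  · rw [e', adj_v, adj_u]; exact ⟨hu, rfl⟩
  have k : a ∈ T \ {u, v} := by simp [ha, e, e']
  rw [adj_off k, adj_off (h a k).1]
  exact ⟨(mem_sdiff.1 (h a k).1).1, (h a k).2⟩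

theorem fx_adj (huv : u ≠ v) : fx T (adj u v z) = fx (T \ {u, v}) z := congrArg card (Finset.ext fun a => by
  simp only [mem_filter, mem_sdiff, mem_insert, mem_singleton, adj]
  grind)

theorem exists_mv (h : fx T x ≠ T.card) : ∃ a ∈ T, x a ≠ a := by
  by_contra hc
  push Not at hc
  exact h (by rw [fx, filter_true_of_mem hc])

theorem exists_pair (hx : Iv T x) (hy : Iv T y) (h3 : 3 ≤ T.card) (h1 : ∃ a ∈ T, x a ≠ a) (h2 : ∃ a ∈ T, y a ≠ a) :
    ∃ u ∈ T, ∃ v ∈ T, u ≠ v ∧ x u ≠ v ∧ y u ≠ v ∧ (x u ≠ u ∨ x v ≠ v) ∧ (y u ≠ u ∨ y v ≠ v) := by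
  by_cases h : ∃ u ∈ T, x u ≠ u ∧ y u ≠ u
  · obtain ⟨u, hu, k1, k2⟩ := h
    have := hx u hu
    have := hy u hu
    by_cases e : x u = y u
    · obtain ⟨v, hv, k⟩ := exists_mem_notMem_of_card_lt_card (s := {u, x u}) (t := T) (card_le_two.trans_lt h3)
      exact ⟨u, hu, v, hv, by grind⟩
    by_cases e' : y (x u) = y u
    · have := hy (x u)
      grind
    · exact ⟨x u, by grind, y u, by grind, by grind⟩
  · obtain ⟨u, hu, k1⟩ := h1
    obtain ⟨v, hv, k2⟩ := h2
    have := hx u hu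
    exact ⟨u, hu, v, hv, by grind⟩

theorem exists_z (n : ℕ) : ∀ (T : Finset α) (x y : α → α), T.card = n → Iv T x → Iv T y → fx T x = fx T y →
    ∃ z, Iv T z ∧ fx T z = fx T x ∧ W T x z ∧ W T y z := by
  induction n using Nat.strong_induction_on with
  | _ n ih =>
    intro T x y hn hx hy e
    by_cases h0 : fx T x = T.card
    · have k : ∀ x : α → α, fx T x = T.card → W T x id := fun x h S s1 _ _ ⟨a, ha⟩ =>
        Or.inl ⟨⟨a, ha, (mem_filter.1 ((eq_of_subset_of_card_le (filter_subset _ T) h.ge).ge (s1 ha))).2⟩, a, ha, rfl⟩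
      exact ⟨id, fun a ha => ⟨ha, rfl⟩, h0 ▸ congrArg card (filter_true_of_mem fun _ _ => rfl), k x h0, k y (e ▸ h0)⟩
    by_cases h3 : 3 ≤ T.card
    · obtain ⟨u, hu, v, hv, huv, a1, a2, a3, a4⟩ := exists_pair hx hy h3 (exists_mv h0) (exists_mv (e ▸ h0))
      obtain ⟨x', x1, x2, x3⟩ := ctr hx hu hv huv a1 a3
      obtain ⟨y', y1, y2, y3⟩ := ctr hy hu hv huv a2 a4
      obtain ⟨z, z1, z2, z3, z4⟩ := ih _ (hn ▸ card_lt_card (sdiff_ssubset (by simp [insert_subset_iff, hu, hv]) (by simp)))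
        _ x' y' rfl x1 y1 (by rw [x2, y2, e])
      have z5 : Iv (T \ {u, v}) (adj u v z) := z1.congr fun _ => adj_off
      exact ⟨adj u v z, z1.adj hu hv, by rw [fx_adj huv, z2, x2], x3 _ adj_u adj_v z5 (z3.congr fun _ => adj_off),
        y3 _ adj_u adj_v z5 (z4.congr fun _ => adj_off)⟩
    · obtain ⟨a, ha, k⟩ := exists_mv h0
      have hT : {a, x a} = T := eq_of_subset_of_card_le (by simp [insert_subset_iff, ha, (hx a ha).1])
        (by rw [card_pair k.symm]; omega)
      have k2 : ∀ y, W T y x := fun y S s1 _ s3 ⟨b, hb⟩ => Or.inr (Subset.antisymm s1 (by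
        have := s1 hb
        have := s3 b hb
        have := hx a ha
        rw [← hT] at *
        simp only [insert_subset_iff, singleton_subset_iff, mem_insert, mem_singleton] at *
        grind))
      exact ⟨x, hx, rfl, k2 x, k2 y⟩

theorem kill (hx : Iv T x) (hz : Iv T z) (e : fx T z = fx T x) (h : W T x z) (h4 : fx T x = 0 → T.card % 4 = 2) {φ : α → ℤ}
    (h1 : ∀ a, φ (x a) = -φ a) (h2 : ∀ a, φ (z a) = φ a) : ∀ a ∈ T, φ a = 0 := by
  intro a ha
  by_contra h0
  have k : ∀ p, x p = p → φ p = 0 := fun p hp => by have := h1 p; rw [hp] at this; omega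
  rcases h (T.filter fun a => φ a ≠ 0) (filter_subset _ _) (fun a ha => by
      rw [mem_filter] at ha ⊢; exact ⟨(hx a ha.1).1, by rw [h1]; simpa using ha.2⟩)
    (fun a ha => by rw [mem_filter] at ha ⊢; exact ⟨(hz a ha.1).1, by rw [h2]; exact ha.2⟩) ⟨a, mem_filter.2 ⟨ha, h0⟩⟩ with
    ⟨⟨p, hp, e'⟩, -⟩ | e'
  · exact (mem_filter.1 hp).2 (k p e')
  have nz : ∀ a ∈ T, φ a ≠ 0 := fun a ha => (mem_filter.1 (e'.ge ha)).2
  have f0 : fx T x = 0 := card_eq_zero.2 (filter_eq_empty_iff.2 fun p hp e => nz p hp (k p e))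
  have c1 : (T.filter fun a => 0 < φ a).card = (T.filter fun a => ¬ 0 < φ a).card :=
    card_bij' (fun a _ => x a) (fun a _ => x a)
      (fun a ha => by rw [mem_filter] at ha ⊢; exact ⟨(hx a ha.1).1, by rw [h1]; omega⟩)
      (fun a ha => by rw [mem_filter] at ha ⊢; have := nz a ha.1; exact ⟨(hx a ha.1).1, by rw [h1]; omega⟩)
      (fun a ha => (hx a (mem_filter.1 ha).1).2) fun a ha => (hx a (mem_filter.1 ha).1).2
  have c2 := card_filter_add_card_filter_not (s := T) fun a => 0 < φ a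
  have c3 : ∑ _a ∈ T.filter fun a => 0 < φ a, (1 : ZMod 2) = 0 := sum_involution (fun a _ => z a) (fun _ _ => rfl)
    (fun a ha _ k => filter_eq_empty_iff.1 (card_eq_zero.1 (e.trans f0)) (mem_filter.1 ha).1 k)
    (fun a ha => by rw [mem_filter] at ha ⊢; exact ⟨(hz a ha.1).1, by rw [h2]; exact ha.2⟩)
    fun a ha => (hz a (mem_filter.1 ha).1).2
  rw [sum_const, nsmul_eq_mul, mul_one, ZMod.natCast_eq_zero_iff] at c3
  have := h4 f0
  omega

open H33.SylSym in
theorem odd_of {x z : Perm α} (hx : ∀ a, x (x a) = a) (hz : ∀ a, z (z a) = a)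
    (h1 : ∀ φ : α → ℤ, (∀ a, φ (x a) = -φ a) → (∀ a, φ (z a) = φ a) → ∀ a, φ a = 0)
    (h2 : ∀ φ : α → ℤ, (∀ a, φ (z a) = -φ a) → (∀ a, φ (x a) = φ a) → ∀ a, φ a = 0) : Odd (orderOf (x * z)) := by
  set g := x * z with hg
  have key : ∀ p, Odd (L g p) := fun p => Nat.not_even_iff_odd.1 fun he => by
    have pos : 0 < L g p := Nat.pos_of_ne_zero fun k => (orderOf_pos g).ne' (Nat.eq_zero_of_zero_dvd
      (k ▸ per.1 (show (g ^ orderOf g) p = p by rw [pow_orderOf_eq_one]; rfl)))
    let ψ : α → ℤ := fun a => ∑ i ∈ range (L g p), if (g ^ i) p = a then (-1) ^ i else 0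
    have k1 : ∀ a, ψ (g a) = -ψ a := fun a => by
      have e1 := sum_range_succ (fun i => if (g ^ i) p = g a then (-1 : ℤ) ^ i else 0) (L g p)
      rw [sum_range_succ', per.2 dvd_rfl, he.neg_one_pow] at e1
      simp only [pow_zero, Perm.one_apply, add_left_inj, pow_succ', Perm.mul_apply, EmbeddingLike.apply_eq_iff_eq] at e1
      refine e1.symm.trans ?_
      rw [← sum_neg_distrib]
      exact sum_congr rfl fun i _ => by split_ifs <;> simp
    have k2 : ψ p = 1 := by
      refine (sum_eq_single 0 (fun i hi h0 => if_neg fun k => ?_) (by simp [pos.ne'])).trans (by simp)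
      exact absurd (Nat.le_of_dvd (Nat.pos_of_ne_zero h0) (per.1 k)) (not_le.2 (mem_range.1 hi))
    have k3 : ∀ a, ψ (x a) = -ψ (z a) := fun a => by rw [← k1, hg, Perm.mul_apply, hz]
    have k4 : ∀ a, ψ (z (x a)) = -ψ a := fun a => by have := k3 (x a); rw [hx] at this; omega
    have e1 := h1 (fun a => ψ a + ψ (z a)) (fun a => by simp only [k3, k4]; ring) (fun a => by simp only [hz]; ring) p
    have e2 := h2 (fun a => ψ a - ψ (z a)) (fun a => by simp only [hz]; ring) (fun a => by simp only [k3, k4]; ring) p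
    omega
  have : g ^ (∏ p, L g p) = 1 := Perm.ext fun p => per.2 (dvd_prod_of_mem _ (mem_univ p))
  exact Odd.of_dvd_nat (prod_induction _ Odd (fun _ _ => Odd.mul) odd_one fun p _ => key p) (orderOf_dvd_of_pow_eq_one this)

theorem odd_W {x z : Perm α} (hx : Iv univ x) (hz : Iv univ z) (x1 : Iv T x) (z1 : Iv T z) (e : fx T z = fx T x) (h : W T x z)
    (h4 : fx T x = 0 → T.card % 4 = 2) (ho : ∀ a ∉ T, x a = z a) : Odd (orderOf (x * z)) := by
  refine odd_of (fun a => (hx a (mem_univ a)).2) (fun a => (hz a (mem_univ a)).2) (fun φ a b c => ?_) fun φ a b c => ?_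
  · by_cases hc : c ∈ T
    · exact kill x1 z1 e h h4 a b c hc
    · have := a c
      rw [ho c hc, b] at this
      omega
  · by_cases hc : c ∈ T
    · exact kill z1 x1 e.symm h.symm (e ▸ h4) a b c hc
    · have := a c
      rw [← ho c hc, b] at this
      omega

theorem even_card (hx : Iv T x) (h : fx T x = 0) : 2 ∣ T.card := by
  have c3 : ∑ _a ∈ T, (1 : ZMod 2) = 0 := sum_involution (fun a _ => x a) (fun _ _ => rfl)
    (fun a ha _ k => filter_eq_empty_iff.1 (card_eq_zero.1 h) ha k) (fun a ha => (hx a ha).1) fun a ha => (hx a ha).2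
  rwa [sum_const, nsmul_eq_mul, mul_one, ZMod.natCast_eq_zero_iff] at c3

theorem Iv.del (hx : Iv univ x) (a : α) : Iv (univ \ {a, x a}) x := fun b hb => by
  have := (hx a (mem_univ _)).2
  have := (hx b (mem_univ _)).2
  simp only [mem_sdiff, mem_insert, mem_singleton, mem_univ, true_and] at hb ⊢
  grind

theorem fx_zero (h : ∀ a, x a ≠ a) : fx T x = 0 := card_eq_zero.2 (filter_eq_empty_iff.2 fun a _ => h a)

theorem card_del (h : u ≠ v) : (univ \ {u, v} : Finset α).card + 2 = Fintype.card α := by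
  rw [← card_pair h, card_sdiff_add_card_eq_card (subset_univ _), card_univ]

theorem main {x y : Perm α} (h5 : 5 ≤ Fintype.card α) (hx : Iv univ x) (hy : Iv univ y) (e : fx univ x = fx univ y) :
    ∃ z : Perm α, Iv univ z ∧ fx univ z = fx univ x ∧ Odd (orderOf (x * z)) ∧ Odd (orderOf (y * z)) := by
  have mk : ∀ z : α → α, Iv univ z → ∃ z' : Perm α, (z' : α → α) = z := fun z hz =>
    ⟨Function.Involutive.toPerm z fun a => (hz a (mem_univ a)).2, rfl⟩
  by_cases h : fx univ x = 0 → Fintype.card α % 4 = 2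
  · obtain ⟨z, z1, z2, z3, z4⟩ := exists_z _ univ x y rfl hx hy e
    obtain ⟨z, rfl⟩ := mk z z1
    exact ⟨z, z1, z2, odd_W hx z1 hx z1 z2 z3 h (by simp), odd_W hy z1 hy z1 (z2.trans e) z4 (e ▸ h) (by simp)⟩
  push Not at h
  have ev := even_card hx h.1
  rw [card_univ] at ev
  have x0 : ∀ a, x a ≠ a := fun a => filter_eq_empty_iff.1 (card_eq_zero.1 h.1) (mem_univ a)
  have y0 : ∀ a, y a ≠ a := fun a => filter_eq_empty_iff.1 (card_eq_zero.1 (e.symm.trans h.1)) (mem_univ a)
  have xx : ∀ a, x (x a) = a := fun a => (hx a (mem_univ a)).2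
  have yy : ∀ a, y (y a) = a := fun a => (hy a (mem_univ a)).2
  have c4 : ∀ {u v : α}, u ≠ v → (univ \ {u, v} : Finset α).card % 4 = 2 := fun k => by have := card_del k; omega
  by_cases hc : ∃ a, x a = y a
  · obtain ⟨a, ha⟩ := hc
    obtain ⟨z, z1, z2, z3, z4⟩ := exists_z _ _ x y rfl (hx.del a) (ha ▸ hy.del a) (by rw [fx_zero x0, fx_zero y0])
    have z5 := z1.adj (mem_univ _) (mem_univ _)
    obtain ⟨w, hw⟩ := mk _ z5
    have w1 : ∀ b ∈ univ \ {a, x a}, w b = z b := fun b hb => by rw [hw, adj_off hb]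
    have w2 : fx (univ \ {a, x a}) w = 0 := by
      rw [← fx_zero (T := univ \ {a, x a}) x0, ← z2]
      exact congrArg card (filter_congr fun b hb => by rw [w1 b hb])
    have w3 : ∀ b ∉ univ \ {a, x a}, x b = w b ∧ y b = w b := fun b hb => by
      obtain rfl | rfl : b = a ∨ b = x a := by by_contra k; exact hb (by simpa using k)
      · rw [hw, adj_u]; exact ⟨rfl, ha.symm⟩
      · rw [hw, adj_v, xx, ha, yy]; exact ⟨rfl, rfl⟩
    refine ⟨w, hw ▸ z5, by rw [hw, fx_adj (x0 a).symm, z2, fx_zero x0, fx_zero x0],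
      odd_W hx (hw ▸ z5) (hx.del a) (z1.congr w1) (by rw [w2, fx_zero x0]) (z3.congr w1) (fun _ => c4 (x0 a).symm)
        fun b hb => (w3 b hb).1,
      odd_W hy (hw ▸ z5) (ha ▸ hy.del a) (z1.congr w1) (by rw [w2, fx_zero y0]) (z4.congr w1) (fun _ => c4 (x0 a).symm)
        fun b hb => (w3 b hb).2⟩
  push Not at hc
  obtain ⟨a⟩ : Nonempty α := Fintype.card_pos_iff.1 (by omega)
  obtain ⟨c, -, k⟩ := exists_mem_notMem_of_card_lt_card (s := {a, x a, y a, y (x a)}) (t := univ)
    (card_le_four.trans_lt (by rw [card_univ]; omega))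
  simp only [mem_insert, mem_singleton, not_or] at k
  have k1 : y c ≠ a := fun e => k.2.2.1 (by rw [← e, yy])
  have k2 : y c ≠ x a := fun e => k.2.2.2 (by rw [← e, yy])
  obtain ⟨x', x1, x2, x3⟩ := ctr (u := c) (v := y c) (hx.del a) (by simp [k.1, k.2.1]) (by simp [k1, k2]) (y0 c).symm (hc c)
    (Or.inl (x0 c))
  obtain ⟨y', y1, y2, y3⟩ := ctr (u := a) (v := x a) (hy.del c) (by simp [Ne.symm k.1, k1.symm])
    (by simp [Ne.symm k.2.1, k2.symm]) (x0 a).symm (hc a).symm (Or.inl (y0 a))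
  have eT : (univ \ {c, y c}) \ {a, x a} = ((univ \ {a, x a}) \ {c, y c} : Finset α) := sdiff_sdiff_comm
  rw [eT] at y1 y2 y3
  obtain ⟨z, z1, z2, z3, z4⟩ := exists_z _ _ x' y' rfl x1 y1 (by rw [x2, y2, fx_zero x0, fx_zero y0])
  have z6 := z1.adj (by simp [k.1, k.2.1]) (by simp [k1, k2])
  have z5 := z6.adj (mem_univ _) (mem_univ _)
  obtain ⟨w, hw⟩ := mk _ z5
  have w1 : ∀ b ∈ (univ \ {a, x a}) \ {c, y c}, w b = z b := fun b hb => by rw [hw, adj_off (mem_sdiff.1 hb).1, adj_off hb]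
  have wa : w a = x a := by rw [hw, adj_u]
  have wb : w (x a) = a := by rw [hw, adj_v]
  have wc : w c = y c := by rw [hw, adj_off (T := univ) (by simp [k.1, k.2.1]), adj_u]
  have wd : w (y c) = c := by rw [hw, adj_off (T := univ) (by simp [k1, k2]), adj_v]
  have w2 : fx univ w = 0 := by rw [hw, fx_adj (x0 a).symm, fx_adj (y0 c).symm, z2, x2, fx_zero x0]
  have w0 : ∀ a, w a ≠ a := fun a => filter_eq_empty_iff.1 (card_eq_zero.1 w2) (mem_univ a)
  have w5 : Iv univ w := hw ▸ z5
  refine ⟨w, w5, w2.trans h.1.symm,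
    odd_W hx w5 (hx.del a) (wa ▸ w5.del a) (by rw [fx_zero w0, fx_zero x0]) (x3 w wc wd (z1.congr w1) (z3.congr w1))
      (fun _ => c4 (x0 a).symm) fun b hb => ?_,
    odd_W hy w5 (hy.del c) (wc ▸ w5.del c) (by rw [fx_zero w0, fx_zero y0]) (y3 w wa wb (z1.congr w1) (z4.congr w1))
      (fun _ => c4 (y0 c).symm) fun b hb => ?_⟩
  · obtain rfl | rfl : b = a ∨ b = x a := by by_contra k; exact hb (by simpa using k)
    · exact wa.symm
    · rw [wb, xx]
  · obtain rfl | rfl : b = c ∨ b = y c := by by_contra k; exact hb (by simpa using k)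
    · exact wc.symm
    · rw [wd, yy]

theorem iv_iff {x : Perm α} : Iv univ x ↔ x ^ 2 = 1 :=
  ⟨fun h => Perm.ext fun a => (h a (mem_univ a)).2, fun h a _ => ⟨mem_univ _, congrFun (congrArg DFunLike.coe h) a⟩⟩

theorem fx_add (x : Perm α) : fx univ x + x.support.card = Fintype.card α := by
  rw [← card_univ, ← card_filter_add_card_filter_not (s := univ) fun a => x a = a]; rfl

theorem conj_iff {x y : Perm α} (hx : x ^ 2 = 1) : IsConj x y ↔ y ^ 2 = 1 ∧ fx univ y = fx univ x := by
  constructor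
  · intro h
    obtain ⟨c, rfl⟩ := isConj_iff.1 h
    refine ⟨by rw [conj_pow, hx, mul_one, mul_inv_cancel], ?_⟩
    have := fx_add x
    have := fx_add (c * x * c⁻¹)
    rw [Perm.card_support_conj] at this
    omega
  · rintro ⟨hy, e⟩
    have : Fact (Nat.Prime 2) := ⟨Nat.prime_two⟩
    have k : ∀ x : Perm α, x ^ 2 = 1 → x.cycleType = Multiset.replicate (x.support.card / 2) 2 := fun x hx => by
      have := Perm.cycleType_of_pow_prime_eq_one hx
      rw [← Perm.sum_cycleType, this]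
      simp
    have := fx_add x
    have := fx_add y
    rw [Perm.isConj_iff_cycleType_eq, k x hx, k y hy, show x.support.card = y.support.card by omega]

theorem exists_even (h5 : 4 ≤ Fintype.card α) {t : Perm α} (ht : t ^ 2 = 1) (h1 : t ≠ 1) :
    ∃ y, IsConj t y ∧ orderOf (t * y) = 2 ∧ orderOf (y * t) = 2 := by
  have : Fact (Nat.Prime 2) := ⟨Nat.prime_two⟩
  have tt : ∀ a, t (t a) = a := fun a => congrFun (congrArg DFunLike.coe ht) a
  obtain ⟨a, ha⟩ : ∃ a, t a ≠ a := by by_contra hc; push Not at hc; exact h1 (Perm.ext hc)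
  have key : ∀ y : Perm α, IsConj t y → (∀ b, t (y b) = y (t b)) → y a ≠ t a →
      ∃ y, IsConj t y ∧ orderOf (t * y) = 2 ∧ orderOf (y * t) = 2 := fun y h1 h2 h3 => by
    have c : Commute t y := Perm.ext h2
    have : orderOf (t * y) = 2 := orderOf_eq_prime (by rw [c.mul_pow, ht, ((conj_iff ht).1 h1).1, mul_one]) fun k => h3 (by
      rw [← tt (y a), ← Perm.mul_apply t y, k, Perm.one_apply])
    exact ⟨y, h1, this, c.eq ▸ this⟩
  by_cases h : ∃ c, c ≠ a ∧ c ≠ t a ∧ t c ≠ c
  · obtain ⟨c, c1, c2, c3⟩ := h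
    refine key (swap (t a) c * t * (swap (t a) c)⁻¹) (isConj_iff.2 ⟨_, rfl⟩) (fun b => ?_) ?_
    · have := tt a; have := tt b; have := tt c
      simp only [swap_inv, Perm.mul_apply, swap_apply_def]
      grind
    · simp only [swap_inv, Perm.mul_apply, swap_apply_def]
      grind
  · push Not at h
    obtain ⟨c, -, k⟩ := exists_mem_notMem_of_card_lt_card (s := {a, t a}) (t := univ)
      (card_le_two.trans_lt (by rw [card_univ]; omega))
    obtain ⟨d, -, k'⟩ := exists_mem_notMem_of_card_lt_card (s := {a, t a, c}) (t := univ)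
      (card_le_three.trans_lt (by rw [card_univ]; omega))
    simp only [mem_insert, mem_singleton, not_or] at k k'
    refine key (swap a c * swap (t a) d * t * (swap a c * swap (t a) d)⁻¹) (isConj_iff.2 ⟨_, rfl⟩) (fun b => ?_) ?_
    · have e1 := tt a
      have e2 := h c k.1 k.2
      have e3 := h d k'.1 k'.2.1
      simp only [mul_inv_rev, swap_inv, Perm.mul_apply, swap_apply_def]
      by_cases b1 : b = a
      · grind
      by_cases b2 : b = t a
      · grind
      have := h b b1 b2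
      grind
    · have := h c; have := h d
      simp only [mul_inv_rev, swap_inv, Perm.mul_apply, swap_apply_def]
      grind

end H33.LocFus
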